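import Cfsg.Agent.ZJF.PStab
import Cfsg.Agent.Fus.NormalChar
import Cfsg.Agent.Fus.Join
import Cfsg.Agent.H51.ZJFun
import Cfsg.Agent.H32.StabQuot3
set_option autoImplicit false
set_option linter.unusedSectionVars false

/-!
`O_p(F)` for `p`-stable fusion systems of groups.
-/

namespace Cfsg.Agent.ZJF

open Cfsg Cfsg.FusionSystem Cfsg.Agent.Fus Cfsg.Agent.ZJ
open scoped commutatorElement

universe u

/-- `Z(J(T))` is strongly closed in `T`. -/
def ZJClosed {X : Type*} [Group X] {p : ℕ} (T : Sylow p X) : Prop :=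
  ∀ x ∈ centerThompsonAOf (T : Subgroup X), ∀ g : X, g * x * g⁻¹ ∈ (T : Subgroup X) →
    g * x * g⁻¹ ∈ centerThompsonAOf (T : Subgroup X)

theorem zjClosed_of_control {X : Type*} [Group X] {p : ℕ} (T : Sylow p X)
    (hctl : ∀ A : Set X, A ⊆ (T : Subgroup X) → ControlsStrongFusionOf
      (Subgroup.normalizer (centerThompsonAOf (T : Subgroup X) : Set X)) (T : Subgroup X) A) : ZJClosed T := by
  intro x hx g hg
  have hxT : x ∈ (T : Subgroup X) := by
    have h1 : centerThompsonAOf (T : Subgroup X) ≤ (T : Subgroup X) := by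
      rw [← rel_zja]; exact rel_le _ _
    exact h1 hx
  obtain ⟨n, hn, h⟩ := (hctl {x} (by
      rintro _ rfl; exact hxT)).2 g (by
      rintro _ ⟨_, rfl, rfl⟩; exact hg)
  rw [h x rfl]
  exact (Subgroup.mem_normalizer_iff.1 hn x).1 hx

theorem exists_quot_conj {G : Type*} [Group G] {C Z : Subgroup G} [hZn : (Z.subgroupOf C).Normal] {n : G}
    (hC : ∀ x, n * x * n⁻¹ ∈ C ↔ x ∈ C) (hZ : ∀ x, n * x * n⁻¹ ∈ Z ↔ x ∈ Z) :
    ∃ φ : (↥C ⧸ Z.subgroupOf C) →* (↥C ⧸ Z.subgroupOf C), Function.Injective φ ∧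
      ∀ (x : C), φ (QuotientGroup.mk x) = QuotientGroup.mk (⟨n * x * n⁻¹, (hC x).2 x.2⟩ : C) := by
  let f : C →* C := ((MulAut.conj n).toMonoidHom.comp C.subtype).codRestrict C (fun x => (hC x).2 x.2)
  refine ⟨QuotientGroup.map _ _ f ?_, ?_, fun x => rfl⟩
  · intro x hx
    rw [Subgroup.mem_comap, Subgroup.mem_subgroupOf]
    exact (hZ x).2 hx
  · rw [injective_iff_map_eq_one]
    intro x hx
    obtain ⟨x, rfl⟩ := QuotientGroup.mk_surjective x
    have h1 : (QuotientGroup.mk (f x) : ↥C ⧸ Z.subgroupOf C) = 1 := hx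
    rw [QuotientGroup.eq_one_iff, Subgroup.mem_subgroupOf] at h1 ⊢
    exact (hZ x).1 h1

/-- The centralizer of `O_p(F)` for `p`-stable systems of groups. -/
theorem centralizer_le_of_pstable {G : Type u} [Group G] [Finite G] {p : ℕ} [Fact p.Prime] (hp2 : p ≠ 2)
    (hzj : ∀ (X : Type u) [Group X] [Finite X], IsNormalizerPStable p X → ∀ T : Sylow p X, ZJClosed T)
    (hq : ∀ (X : Type u) [Group X] [Finite X], IsNormalizerPStable p X → ∀ (N : Subgroup X) [N.Normal],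
      IsPGroup p N → N ≤ Subgroup.center X → IsNormalizerPStable p (X ⧸ N))
    (P : Sylow p G) (hst : IsNormalizerPStable p G) :
    (P : Subgroup G) ⊓ Subgroup.centralizer ((groupFusionSystem (P : Subgroup G)).core : Set G) ≤
      (groupFusionSystem (P : Subgroup G)).core := by
  obtain ⟨F, hF⟩ : ∃ F, F = groupFusionSystem (P : Subgroup G) := ⟨_, rfl⟩
  rw [← hF]
  obtain ⟨Q, hQ⟩ : ∃ Q, Q = F.core := ⟨_, rfl⟩
  rw [← hQ]
  have hQN : F.IsNormal Q := by rw [hQ]; exact Fus.Join.isNormal_core F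
  have hQmax : ∀ W, F.IsNormal W → W ≤ Q := fun W hW => by rw [hQ]; exact Fus.Join.le_core hW
  obtain ⟨hQP, hQn⟩ := isNormal_iff_isMap.1 hQN
  obtain ⟨C, hC⟩ : ∃ C, C = Subgroup.centralizer (Q : Set G) := ⟨_, rfl⟩
  rw [← hC]
  -- fusion is realized in the normalizer of `Q`
  have hfus : ∀ x ∈ (P : Subgroup G), ∀ g : G, g * x * g⁻¹ ∈ (P : Subgroup G) →
      ∃ n ∈ Subgroup.normalizer (Q : Set G), n * x * n⁻¹ = g * x * g⁻¹ := by
    intro x hx g hg
    have hm : IsMap F (Subgroup.zpowers x) (fun y => g * y * g⁻¹) := by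
      rw [hF]
      refine isMap_group.mpr ⟨by rwa [Subgroup.zpowers_le], ?_, g, fun _ _ => rfl⟩
      rintro _ ⟨i, rfl⟩
      have : g * x ^ i * g⁻¹ = (g * x * g⁻¹) ^ i := by rw [conj_zpow]
      show g * x ^ i * g⁻¹ ∈ (P : Subgroup G)
      rw [this]; exact Subgroup.zpow_mem _ hg i
    obtain ⟨k, hk, hkf, hkQ⟩ := hQn _ _ hm
    rw [hF] at hk
    obtain ⟨-, -, n, hn⟩ := isMap_group.mp hk
    refine ⟨n, ?_, ?_⟩
    · apply Subgroup.mem_normalizer_fintype
      intro y hy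
      have h1 := hn y ((le_sup_right : Q ≤ Subgroup.zpowers x ⊔ Q) hy)
      rw [← h1]
      have h2 : k y ∈ img Q k := by
        rw [(hk.mono le_sup_right).mem_img]
        exact ⟨y, hy, rfl⟩
      rw [hkQ] at h2
      exact h2
    · have h1 := hn x ((le_sup_left : Subgroup.zpowers x ≤ Subgroup.zpowers x ⊔ Q) (Subgroup.mem_zpowers x))
      rw [← h1, ← hkf x (Subgroup.mem_zpowers x)]
  obtain ⟨N, hN⟩ : ∃ N, N = Subgroup.normalizer (Q : Set G) := ⟨_, rfl⟩
  rw [← hN] at hfus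
  have hPN : (P : Subgroup G) ≤ N := by
    intro x hx
    have hm : IsMap F Q (fun y => x * y * x⁻¹) := by
      rw [hF]
      exact isMap_group.mpr ⟨hQP, fun y hy => Subgroup.mul_mem _ (Subgroup.mul_mem _ hx (hQP hy))
        (Subgroup.inv_mem _ hx), x, fun _ _ => rfl⟩
    obtain ⟨k, hk, hkf, hkQ⟩ := hQn _ _ hm
    rw [hN]
    apply Subgroup.mem_normalizer_fintype
    intro y hy
    show x * y * x⁻¹ ∈ Q
    rw [← hkf y hy, ← hkQ, (hk.mono le_sup_right).mem_img]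
    exact ⟨y, hy, rfl⟩
  have hNC : ∀ n ∈ N, ∀ x, n * x * n⁻¹ ∈ C ↔ x ∈ C := by
    have key : ∀ n ∈ N, ∀ x ∈ C, n * x * n⁻¹ ∈ C := by
      intro n hn x hx
      rw [hN] at hn
      rw [hC, Subgroup.mem_centralizer_iff] at hx ⊢
      intro y hy
      have h1 := hx (n⁻¹ * y * n) (by
        have := (Subgroup.mem_normalizer_iff.1 (Subgroup.inv_mem _ hn) y).1 hy
        simpa using this)
      calc y * (n * x * n⁻¹) = n * (n⁻¹ * y * n * x) * n⁻¹ := by group
        _ = n * (x * (n⁻¹ * y * n)) * n⁻¹ := by rw [h1]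
        _ = n * x * n⁻¹ * y := by group
    intro n hn x
    refine ⟨fun h => ?_, key n hn x⟩
    have := key n⁻¹ (N.inv_mem hn) _ h
    have e : n⁻¹ * (n * x * n⁻¹) * n⁻¹⁻¹ = x := by group
    rwa [e] at this
  obtain ⟨Z, hZ⟩ : ∃ Z, Z = Q ⊓ C := ⟨_, rfl⟩
  have hZC : Z ≤ C := by rw [hZ]; exact inf_le_right
  have hZP : Z ≤ (P : Subgroup G) := by rw [hZ]; exact inf_le_left.trans hQP
  have hNQ : ∀ n ∈ N, ∀ x, n * x * n⁻¹ ∈ Q ↔ x ∈ Q := by
    intro n hn x
    rw [hN] at hn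
    exact (Subgroup.mem_normalizer_iff.1 hn x).symm
  have hNZ : ∀ n ∈ N, ∀ x, n * x * n⁻¹ ∈ Z ↔ x ∈ Z := by
    intro n hn x
    rw [hZ, Subgroup.mem_inf, Subgroup.mem_inf, hNC n hn, hNQ n hn]
  have hCN : C ≤ N := by rw [hC, hN]; exact Subgroup.centralizer_le_normalizer _
  have hZcen : ∀ z ∈ Z, ∀ c ∈ C, z * c = c * z := by
    intro z hz c hc
    rw [hZ] at hz
    rw [hC] at hc
    exact Subgroup.mem_centralizer_iff.1 hc z hz.1
  -- the Sylow subgroup of `C`
  obtain ⟨T, hT⟩ : ∃ T, T = (P : Subgroup G) ⊓ C := ⟨_, rfl⟩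
  rw [← hT]
  have hTC : T ≤ C := by rw [hT]; exact inf_le_right
  have hTP : T ≤ (P : Subgroup G) := by rw [hT]; exact inf_le_left
  have hTp : IsPGroup p T := P.2.to_le hTP
  have hZT : Z ≤ T := by rw [hT]; exact le_inf hZP hZC
  have hPsN : SylIn p (P : Subgroup G) N := (sylIn_top P).of_le hPN le_top
  have hTs : SylIn p T C := by
    obtain ⟨R, hR, hTR⟩ := exists_sylIn_ge (K := T) (L := C) hTC hTp
    obtain ⟨g, hg, hgR⟩ := hPsN.exists_cj_le (hR.le.trans hCN) hR.isPGroup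
    have h1 : cj g R ≤ T := by
      rw [hT]
      refine le_inf hgR ?_
      rw [cj_le_iff]
      intro x hx
      exact (hNC g hg x).2 (hR.le hx)
    have h2 : Nat.card R ≤ Nat.card T := by
      have := Subgroup.card_le_of_le h1
      rwa [show cj g R = R.map (MulAut.conj g).toMonoidHom from rfl,
        Subgroup.card_map_of_injective (MulAut.conj g).injective] at this
    have h3 : T = R := Subgroup.eq_of_le_of_card_ge hTR h2
    rw [h3]; exact hR
  -- the quotient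
  have hZn : (Z.subgroupOf C).Normal := by
    refine ⟨fun x hx c => ?_⟩
    rw [Subgroup.mem_subgroupOf] at hx ⊢
    exact (hNZ c (hCN c.2) x).2 hx
  have hZp : IsPGroup p (Z.subgroupOf C) :=
    (hTp.to_le hZT).of_injective (Subgroup.subgroupOfEquivOfLe hZC).toMonoidHom
      (Subgroup.subgroupOfEquivOfLe hZC).injective
  have hstX : IsNormalizerPStable p (↥C ⧸ Z.subgroupOf C) := by
    refine hq C (Cfsg.Agent.H51.isNormalizerPStable_subgroup hst C) (Z.subgroupOf C) hZp ?_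
    intro z hz
    rw [Subgroup.mem_center_iff]
    intro c
    exact Subtype.ext (hZcen z hz c c.2).symm
  let f : ↥C →* ↥C ⧸ Z.subgroupOf C := QuotientGroup.mk' (Z.subgroupOf C)
  have hfs : Function.Surjective f := QuotientGroup.mk'_surjective _
  let T' : Sylow p (↥C ⧸ Z.subgroupOf C) := hTs.toSylow.mapSurjective hfs
  have hT' : (T' : Subgroup (↥C ⧸ Z.subgroupOf C)) = (T.subgroupOf C).map f := rfl
  have hcl := hzj _ hstX T'
  obtain ⟨V, hV⟩ : ∃ V, V = centerThompsonAOf (T' : Subgroup (↥C ⧸ Z.subgroupOf C)) := ⟨_, rfl⟩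
  unfold ZJClosed at hcl
  rw [← hV] at hcl
  have hVrel : V = rel (fun X _ => zja X) (T' : Subgroup (↥C ⧸ Z.subgroupOf C)) := by rw [hV, rel_zja]
  have hVT : V ≤ (T' : Subgroup (↥C ⧸ Z.subgroupOf C)) := by rw [hVrel]; exact rel_le _ _
  obtain ⟨W, hW⟩ : ∃ W, W = (V.comap f).map C.subtype := ⟨_, rfl⟩
  have hWC : W ≤ C := by rw [hW]; exact Subgroup.map_subtype_le _
  have memW : ∀ x : C, (x : G) ∈ W ↔ f x ∈ V := by
    intro x
    rw [hW]
    constructor
    · rintro ⟨y, hy, hyx⟩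
      have : y = x := Subtype.ext hyx
      rw [← this]; exact hy
    · intro h
      exact ⟨x, h, rfl⟩
  have hmkT : ∀ x : C, f x ∈ (T' : Subgroup (↥C ⧸ Z.subgroupOf C)) ↔ (x : G) ∈ T := by
    intro x
    rw [hT']
    constructor
    · rintro ⟨y, hy, hyx⟩
      have h1 : y⁻¹ * x ∈ Z.subgroupOf C := QuotientGroup.eq.1 hyx
      have h2 : (y : G) * ((y : G)⁻¹ * x) ∈ T := T.mul_mem hy (hZT h1)
      have e : (y : G) * ((y : G)⁻¹ * x) = x := by group
      rwa [e] at h2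
    · intro h
      exact ⟨x, h, rfl⟩
  have hWT : W ≤ T := by
    intro x hx
    have := (memW ⟨x, hWC hx⟩).1 hx
    exact (hmkT ⟨x, hWC hx⟩).1 (hVT this)
  have hZW : Z ≤ W := by
    intro z hz
    refine (memW ⟨z, hZC hz⟩).2 ?_
    have : f ⟨z, hZC hz⟩ = 1 := (QuotientGroup.eq_one_iff _).2 hz
    rw [this]; exact V.one_mem
  -- `W` is invariant under the normalizer of `T`
  have hWn : ∀ n ∈ N, cj n T = T → ∀ x ∈ W, n * x * n⁻¹ ∈ W := by
    intro n hn hnT x hx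
    obtain ⟨φ, hφi, hφ⟩ := exists_quot_conj (C := C) (Z := Z) (hNC n hn) (hNZ n hn)
    have h1 : ((T' : Subgroup (↥C ⧸ Z.subgroupOf C))).map φ = (T' : Subgroup (↥C ⧸ Z.subgroupOf C)) := by
      refine Subgroup.eq_of_le_of_card_ge ?_ ?_
      · rintro _ ⟨y, hy, rfl⟩
        obtain ⟨y, rfl⟩ := hfs y
        show φ (f y) ∈ (T' : Subgroup (↥C ⧸ Z.subgroupOf C))
        have h2 : φ (f y) = f ⟨n * y * n⁻¹, (hNC n hn y).2 y.2⟩ := hφ y
        rw [h2, hmkT]
        have h3 : (y : G) ∈ T := (hmkT y).1 hy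
        show n * y * n⁻¹ ∈ T
        rw [← hnT]; exact conj_mem_cj h3
      · rw [Subgroup.card_map_of_injective hφi]
    have h2 : V.map φ = V := by
      rw [hVrel, rel_map isNat_zja φ hφi.injOn, h1]
    have h3 := (memW ⟨x, hWC hx⟩).1 hx
    have h4 : φ (f ⟨x, hWC hx⟩) ∈ V := by rw [← h2]; exact ⟨_, h3, rfl⟩
    have h5 : φ (f ⟨x, hWC hx⟩) = f ⟨n * x * n⁻¹, (hNC n hn x).2 (hWC hx)⟩ := hφ _
    rw [h5] at h4
    exact (memW ⟨n * x * n⁻¹, (hNC n hn x).2 (hWC hx)⟩).2 h4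
  -- `W` is strongly closed
  have hWcl : ∀ x ∈ W, ∀ g : G, g * x * g⁻¹ ∈ (P : Subgroup G) → g * x * g⁻¹ ∈ W := by
    intro x hx g hg
    obtain ⟨n, hn, hng⟩ := hfus x (hTP (hWT hx)) g hg
    rw [← hng] at hg ⊢
    obtain ⟨c, hc, hcT⟩ := hTs.exists_cj_le (K := cj n T) (by
      rw [cj_le_iff]
      intro y hy
      exact (hNC n hn y).2 (hTC hy)) (hTp.map _)
    rw [cj_mul] at hcT
    have hcn : cj (c * n) T = T := by
      refine Subgroup.eq_of_le_of_card_ge hcT ?_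
      rw [show cj (c * n) T = T.map (MulAut.conj (c * n)).toMonoidHom from rfl,
        Subgroup.card_map_of_injective (MulAut.conj (c * n)).injective]
    have h1 := hWn (c * n) (N.mul_mem (hCN hc) hn) hcn x hx
    have h2 : n * x * n⁻¹ = c⁻¹ * ((c * n) * x * (c * n)⁻¹) * c⁻¹⁻¹ := by group
    have hnC : n * x * n⁻¹ ∈ C := (hNC n hn x).2 (hWC hx)
    have hnT : n * x * n⁻¹ ∈ T := by rw [hT]; exact ⟨hg, hnC⟩
    rw [h2] at hnT ⊢
    have h3 := (memW ⟨_, hWC h1⟩).1 h1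
    have h4 := hcl _ h3 (f ⟨c⁻¹, C.inv_mem hc⟩) (by
      rw [← map_mul, ← map_inv, ← map_mul]
      rw [hmkT]; exact hnT)
    rw [← map_mul, ← map_inv, ← map_mul] at h4
    exact (memW _).2 h4
  have hZcl : ∀ x ∈ Z, ∀ g : G, g * x * g⁻¹ ∈ (P : Subgroup G) → g * x * g⁻¹ ∈ Z := by
    intro x hx g hg
    obtain ⟨n, hn, hng⟩ := hfus x (hZP hx) g hg
    rw [← hng]
    exact (hNZ n hn x).2 hx
  have hsc : ∀ R : Subgroup G, R ≤ (P : Subgroup G) → (∀ x ∈ R, ∀ g : G, g * x * g⁻¹ ∈ (P : Subgroup G) →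
      g * x * g⁻¹ ∈ R) → F.StronglyClosed R := by
    intro R hR h
    rw [stronglyClosed_iff_isMap]
    refine ⟨hR, fun A k hk x hxA hxR => ?_⟩
    rw [hF] at hk
    obtain ⟨-, h2, g, hg⟩ := isMap_group.mp hk
    have h3 := h2 x hxA
    rw [hg x hxA] at h3 ⊢
    exact h x hxR g h3
  have hFs : F.IsSaturated p := by rw [hF]; exact group_saturated P
  have hWN : F.IsNormal W := by
    refine isNormal_of_series P.2 hFs 2 (fun i => if i = 0 then ⊥ else if i = 1 then Z else W) (by simp)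
      (by simp) ?_ ?_ (hsc W (hWT.trans hTP) hWcl)
    · intro i j hij
      simp only
      split_ifs <;> first | exact le_rfl | exact bot_le | exact hZW | omega
    · intro i hi
      have hi0 : i = 0 ∨ i = 1 := by omega
      rcases hi0 with rfl | rfl
      · refine ⟨by simpa using hsc Z hZP hZcl, ?_⟩
        simp only [zero_add, if_true, one_ne_zero, if_false]
        rw [Subgroup.commutator_le]
        intro x hx y hy
        rw [Subgroup.mem_bot, commutatorElement_eq_one_iff_mul_comm]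
        exact (hZcen y hy x (hWC hx)).symm
      · refine ⟨by simpa using hsc W (hWT.trans hTP) hWcl, ?_⟩
        simp only [one_ne_zero, if_false, if_true, Nat.reduceAdd, OfNat.ofNat_ne_zero, OfNat.ofNat_ne_one]
        rw [Subgroup.commutator_le]
        intro x hx y hy
        have hVc : ∀ a ∈ V, ∀ b ∈ V, a * b = b * a := by
          intro a ha b hb
          rw [hV] at ha hb
          have h1 : centerThompsonAOf (T' : Subgroup (↥C ⧸ Z.subgroupOf C)) ≤
              Subgroup.centralizer (centerThompsonAOf (T' : Subgroup (↥C ⧸ Z.subgroupOf C)) :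
                Set (↥C ⧸ Z.subgroupOf C)) := by
            unfold centerThompsonAOf
            exact inf_le_right.trans (Subgroup.centralizer_le inf_le_left)
          exact (Subgroup.mem_centralizer_iff.1 (h1 ha) b hb).symm
        have h1 := hVc _ ((memW ⟨x, hWC hx⟩).1 hx) _ ((memW ⟨y, hWC hy⟩).1 hy)
        have h2 : ⁅(⟨x, hWC hx⟩ : C), ⟨y, hWC hy⟩⁆ ∈ Z.subgroupOf C := by
          rw [← QuotientGroup.eq_one_iff]
          show f ⁅(⟨x, hWC hx⟩ : C), ⟨y, hWC hy⟩⁆ = 1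
          rw [map_commutatorElement, commutatorElement_eq_one_iff_mul_comm]
          exact h1
        exact h2
  have hWQ := hQmax W hWN
  have hWZ : W ≤ Z := by rw [hZ]; exact le_inf hWQ hWC
  have hVbot : V = ⊥ := by
    rw [eq_bot_iff]
    intro v hv
    obtain ⟨x, rfl⟩ := hfs v
    have h1 := hWZ ((memW x).2 hv)
    exact (QuotientGroup.eq_one_iff x).2 h1
  have hTbot : (T' : Subgroup (↥C ⧸ Z.subgroupOf C)) = ⊥ := by
    by_contra hne
    exact Cfsg.Agent.H51.rel_ne_bot (Cfsg.Agent.H51.goodFun_zja hp2) T'.2 hne (by rw [← hVrel, hVbot])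
  intro x hx
  have h1 := (hmkT ⟨x, hTC hx⟩).2 hx
  rw [hTbot, Subgroup.mem_bot] at h1
  have h2 : (⟨x, hTC hx⟩ : C) ∈ Z.subgroupOf C := (QuotientGroup.eq_one_iff _).1 h1
  have h3 : x ∈ Z := h2
  rw [hZ] at h3
  exact h3.1

end Cfsg.Agent.ZJF
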