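import Cfsg.Agent.H32.SFStep
import Cfsg.Agent.ZJF.QuotC
import Cfsg.Agent.ZJF.PStab2
import Cfsg.Agent.H51.ZJFun
set_option autoImplicit false
set_option linter.unusedSectionVars false

/-!
`N_G(Z(J(P)))` controls strong fusion in normalizer `p`-stable groups, all odd `p`
(adapted from the case `p > 3`).
-/

namespace Cfsg.Agent.ZJF

universe u

open Cfsg Cfsg.Agent.H33 Cfsg.Agent.ZJ

/-- the functor `Z(J(P))`. -/
abbrev WZJ : ∀ (Q : Type u) [Group Q], Subgroup Q := fun X _ => zja X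

theorem charWZJ {p : ℕ} [Fact p.Prime] (hp : p ≠ 2) : Cfsg.IsCharPFunctor.{u} p WZJ.{u} :=
  ⟨fun Q _ _ h1 h2 => (Cfsg.Agent.H51.goodFun_zja hp).ne_bot Q h1 h2, fun Q R _ _ _ _ φ => isNat_zja Q R φ⟩

theorem induced_zj_eq {G : Type u} [Group G] (P : Subgroup G) :
    Cfsg.inducedFunctor WZJ.{u} P = Cfsg.centerThompsonAOf P := rel_zja P

theorem family_zj {p : ℕ} [Fact p.Prime] (hp2 : p ≠ 2) (n : ℕ) : ∀ (X : Type u) [Group X] [Finite X],
    Nat.card X = n → Cfsg.IsNormalizerPStable p X →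
      Cfsg.FamilyControlsStrongFusionIn p (ind X {WZJ.{u}}) ⊤ := by
  have h𝓦 : ∀ W ∈ ({WZJ.{u}} : Set (∀ (Q : Type u) [Group Q], Subgroup Q)), Cfsg.IsCharPFunctor.{u} p W := by
    intro W hW
    rw [Set.mem_singleton_iff] at hW
    rw [hW]; exact charWZJ hp2
  induction n using Nat.strong_induction_on with
  | _ n ih =>
  intro X _ _ hn hst
  refine Cfsg.Agent.H32.SFStep.sf_step' h𝓦 ?_ ?_ ?_
  · intro K hK
    refine family_subgroup h𝓦 (ih (Nat.card K) ?_ K rfl (Cfsg.Agent.H51.isNormalizerPStable_subgroup hst K))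
    rw [← hn]
    have := card_lt_card_of_lt (lt_top_iff_ne_top.2 hK)
    rwa [Subgroup.card_top] at this
  · intro N _ hN hor
    refine ih (Nat.card (X ⧸ N)) ?_ (X ⧸ N) rfl ?_
    · rw [← hn, ← Subgroup.card_mul_index N, Subgroup.index]
      have h1 : 1 < Nat.card N := by
        rw [Subgroup.one_lt_card_iff_ne_bot]; exact hN
      have h2 : 0 < Nat.card (X ⧸ N) := Nat.card_pos
      nlinarith
    · rcases hor with h | ⟨h1, h2⟩
      · exact Cfsg.Agent.H32.StabQuot.isNormalizerPStable_quotient_pprime hst h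
      · exact Cfsg.Agent.ZJF.Quot.isNormalizerPStable_quotient_p' hp2 hst h1 h2
  · intro hc
    obtain ⟨S⟩ : Nonempty (Sylow p X) := inferInstance
    refine family_iff.2 ⟨(S : Subgroup X), isSyl_top S, ?_⟩
    have hnorm : (Cfsg.centerThompsonAOf (S : Subgroup X)).Normal :=
      centerThompsonAOf_normal hp2 hc (fun P hP hPp => Cfsg.Agent.H51.isPStableOn_of_normalizer hst P hPp) S
    intro A hA h hh hhA
    refine SFc.single (N := ⊤ ⊓ Subgroup.normalizer ((Cfsg.inducedFunctor WZJ.{u} (S : Subgroup X) : Subgroup X) : Set X))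
      ⟨_, ⟨_, Set.mem_singleton _, rfl⟩, rfl⟩ ?_ hA hhA
    refine ⟨Subgroup.mem_top _, ?_⟩
    rw [induced_zj_eq, Subgroup.normalizer_eq_top]
    trivial

/-- the normalizer of `Z(J(P))` controls strong fusion, all odd `p` -/
theorem zj_controls {G : Type u} [Group G] [Finite G] {p : ℕ} [Fact p.Prime] (hp2 : p ≠ 2)
    (hst : Cfsg.IsNormalizerPStable p G) (P : Sylow p G) : ∀ A : Set G, A ⊆ (P : Subgroup G) →
      Cfsg.ControlsStrongFusionOf (Subgroup.normalizer (Cfsg.centerThompsonAOf (P : Subgroup G) : Set G))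
        (P : Subgroup G) A := by
  intro A hA
  refine ⟨hA, ?_⟩
  intro g hg
  have h𝓦 : ∀ W ∈ ({WZJ} : Set (∀ (Q : Type _) [Group Q], Subgroup Q)), Cfsg.IsCharPFunctor p W := by
    intro W hW
    rw [Set.mem_singleton_iff] at hW
    rw [hW]; exact charWZJ hp2
  have h1 := family_zj hp2 (Nat.card G) G rfl hst
  have h2 := SFcontrol.of_family (ind_conj (G := G) h𝓦) h1 (isSyl_top P)
  have h3 := h2 (Subgroup.closure A) (closure_sub_iff.2 hA) g (Subgroup.mem_top _) (by
    rw [cj_closure]; exact closure_sub_iff.2 hg)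
  have h4 : nFam (ind G {WZJ}) ⊤ (P : Subgroup G) = {⊤ ⊓ Subgroup.normalizer
      ((Cfsg.inducedFunctor WZJ (P : Subgroup G) : Subgroup G) : Set G)} := by
    ext N; simp [nFam]
  rw [h4] at h3
  obtain ⟨x, hx, h6⟩ := h3.single_fam
  refine ⟨x, ?_, fun a ha => (h6 a (Subgroup.subset_closure ha)).symm⟩
  have := hx.2
  rwa [induced_zj_eq] at this

theorem zjClosed_of_pstable {G : Type u} [Group G] [Finite G] {p : ℕ} [Fact p.Prime] (hp2 : p ≠ 2)
    (hst : Cfsg.IsNormalizerPStable p G) (P : Sylow p G) : ZJClosed P :=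
  zjClosed_of_control P (zj_controls hp2 hst P)

end Cfsg.Agent.ZJF
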