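import Cfsg.Agent.Fus.Group
import Cfsg.Agent.H36.QuadOn
import Cfsg.Prelude.Def_LocalEven
set_option autoImplicit false
set_option linter.unusedSectionVars false

/-!
`p`-stable fusion systems of groups and normalizer `p`-stability.
-/

namespace Cfsg.Agent.ZJF

open Cfsg Cfsg.FusionSystem Cfsg.Agent.Fus
open scoped commutatorElement

/-- the hypothesis of `p`-stability of a fusion system -/
def FPStable (p : ℕ) {Ω : Type*} [Group Ω] {S : Subgroup Ω} (F : FusionSystem S) : Prop :=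
  ∀ Q : Subgroup Ω, F.IsFullyNormalized Q → ∀ χ : MulAut ↥Q, χ ∈ F.autGroup Q →
    (∀ a : ↥Q, (χ a⁻¹) * a * (χ a⁻¹) * (χ (χ a)) = 1) →
      χ ∈ ((pCore p ↥(F.autGroup Q)).map (F.autGroup Q).subtype : Subgroup (MulAut ↥Q))

theorem isNormalizerPStable_of_fusion {Ω : Type*} [Group Ω] [Finite Ω] {p : ℕ} [Fact p.Prime] (P : Sylow p Ω)
    (hst : FPStable p (groupFusionSystem (P : Subgroup Ω))) : IsNormalizerPStable p Ω := by
  intro R hR g hg hq
  obtain ⟨h, hle, hfn⟩ : ∃ h : Ω, cj h R ≤ (P : Subgroup Ω) ∧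
      (groupFusionSystem (P : Subgroup Ω)).IsFullyNormalized (cj h R) := by
    obtain ⟨k, -, hk⟩ := (sylIn_top P).exists_cj_le (K := R) le_top hR
    obtain ⟨l, -, hl, hs⟩ := exists_conj_sylIn (sylIn_top P) hk
    refine ⟨l * k, by rwa [← cj_mul], ?_⟩
    rw [← cj_mul, groupFusionSystem_eq, fullyNormalized_fsos_iff (sylIn_top P) hl]; exact hs
  -- the homomorphism
  have hn : ∀ n ∈ Subgroup.normalizer (R : Set Ω), h * n * h⁻¹ ∈ Subgroup.normalizer (cj h R : Set Ω) := by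
    intro n hn
    rw [mem_normalizer_cj]
    have e : h⁻¹ * (h * n * h⁻¹) * h = n := by group
    rwa [e]
  obtain ⟨A, hA⟩ : ∃ A, A = (groupFusionSystem (P : Subgroup Ω)).autGroup (cj h R) := ⟨_, rfl⟩
  let Φ : Subgroup.normalizer (R : Set Ω) →* MulAut ↥(cj h R) := (cj h R).normalizerMonoidHom.comp
    (((MulAut.conj h).toMonoidHom.comp (Subgroup.normalizer (R : Set Ω)).subtype).codRestrict _
      (fun n => hn n n.2))
  have hΦ : ∀ (n : Subgroup.normalizer (R : Set Ω)) (x : cj h R),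
      ((Φ n x : cj h R) : Ω) = (h * n * h⁻¹) * x * (h * n * h⁻¹)⁻¹ := fun n x => rfl
  have hΦA : ∀ n, Φ n ∈ A := by
    intro n
    rw [hA, mem_autGroup_iff hle]
    refine isMap_group.mpr ⟨hle, fun x hx => hle (ofAut_mem _ hx), h * n * h⁻¹, fun x hx => ?_⟩
    rw [ofAut_apply _ hx, hΦ]
  have hχ : Φ ⟨g, hg⟩ ∈ (pCore p A).map A.subtype := by
    rw [hA]
    refine hst _ hfn _ (hA ▸ hΦA _) ?_
    intro a
    apply Subtype.ext
    obtain ⟨y, hy, hya⟩ : ∃ y ∈ R, h * y * h⁻¹ = (a : Ω) := by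
      refine ⟨h⁻¹ * a * h, mem_cj.1 a.2, by group⟩
    have h1 : Commute g ⁅g, y⁆ := H36.QuadOn.Quad.commute (V := R) hq hy
    have h2 : g * (g * y * g⁻¹ * y⁻¹) = (g * y * g⁻¹ * y⁻¹) * g := h1
    have e1 : ∀ b : cj h R, ((Φ ⟨g, hg⟩ b : cj h R) : Ω) = (h * g * h⁻¹) * b * (h * g * h⁻¹)⁻¹ := fun b => rfl
    rw [Subgroup.coe_mul, Subgroup.coe_mul, Subgroup.coe_mul, e1, e1, e1, Subgroup.coe_inv, ← hya,
      Subgroup.coe_one]
    have h3 : g * g * y * g⁻¹ * g⁻¹ = g * y * g⁻¹ * y⁻¹ * g * y * g⁻¹ := by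
      calc g * g * y * g⁻¹ * g⁻¹ = g * (g * y * g⁻¹ * y⁻¹) * y * g⁻¹ := by group
        _ = (g * y * g⁻¹ * y⁻¹) * g * y * g⁻¹ := by rw [h2]
        _ = _ := by group
    calc h * g * h⁻¹ * (h * y * h⁻¹)⁻¹ * (h * g * h⁻¹)⁻¹ * (h * y * h⁻¹) *
          (h * g * h⁻¹ * (h * y * h⁻¹)⁻¹ * (h * g * h⁻¹)⁻¹) *
          (h * g * h⁻¹ * (h * g * h⁻¹ * (h * y * h⁻¹) * (h * g * h⁻¹)⁻¹) * (h * g * h⁻¹)⁻¹)
        = h * (g * y⁻¹ * g⁻¹ * y * g * y⁻¹ * g⁻¹ * (g * g * y * g⁻¹ * g⁻¹)) * h⁻¹ := by group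
      _ = 1 := by rw [h3]; group
  -- the normal `p`-subgroup
  obtain ⟨M, hM⟩ : ∃ M : Subgroup (Subgroup.normalizer (R : Set Ω)), M = ((pCore p A).map A.subtype).comap Φ :=
    ⟨_, rfl⟩
  have hMn : M.Normal := by
    refine ⟨fun x hx n => ?_⟩
    rw [hM, Subgroup.mem_comap] at hx ⊢
    obtain ⟨c, hc, hcx⟩ := hx
    refine ⟨⟨Φ n, hΦA n⟩ * c * ⟨Φ n, hΦA n⟩⁻¹, ?_, ?_⟩
    · have hN : (pCore p A).Normal := inferInstance
      exact hN.conj_mem c hc _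
    · rw [map_mul, map_mul, map_inv, map_mul, map_mul, map_inv, hcx]; rfl
  have hker : ∀ n : Subgroup.normalizer (R : Set Ω), Φ n = 1 → (n : Ω) ∈ Subgroup.centralizer (R : Set Ω) := by
    intro n hn1
    rw [Subgroup.mem_centralizer_iff]
    intro y hy
    have h1 := hΦ n ⟨h * y * h⁻¹, conj_mem_cj hy⟩
    rw [hn1] at h1
    have h2 : h * y * h⁻¹ = (h * n * h⁻¹) * (h * y * h⁻¹) * (h * n * h⁻¹)⁻¹ := h1
    have h3 : h * y * h⁻¹ = h * (n * y * (n : Ω)⁻¹) * h⁻¹ := h2.trans (by group)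
    have h4 : y = n * y * (n : Ω)⁻¹ := mul_left_cancel (mul_right_cancel h3)
    calc y * n = (n * y * (n : Ω)⁻¹) * n := by rw [← h4]
      _ = n * y := by group
  let f := QuotientGroup.mk' ((Subgroup.centralizer (R : Set Ω)).subgroupOf (Subgroup.normalizer (R : Set Ω)))
  have hle2 : M.map f ≤ pCore p _ := by
    apply Cfsg.Agent.Solv.le_pCore
    · exact hMn.map f (QuotientGroup.mk'_surjective _)
    · rintro ⟨_, n, hnM, rfl⟩
      have hnM' : n ∈ M := hnM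
      rw [hM, Subgroup.mem_comap] at hnM'
      obtain ⟨c, hc, hcx⟩ := hnM'
      obtain ⟨k, hk⟩ := (Cfsg.Agent.Solv.pCore_isPGroup (G := A) p) ⟨c, hc⟩
      refine ⟨k, Subtype.ext ?_⟩
      show f n ^ p ^ k = 1
      rw [← map_pow]
      refine (QuotientGroup.eq_one_iff _).2 ?_
      rw [Subgroup.mem_subgroupOf]
      apply hker
      rw [map_pow, ← hcx, ← map_pow]
      have : c ^ p ^ k = 1 := congrArg Subtype.val hk
      rw [this, map_one]
  exact hle2 ⟨⟨g, hg⟩, by rw [hM]; exact hχ, rfl⟩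

end Cfsg.Agent.ZJF
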