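import Mathlib
import Cfsg.Agent.ZJF.QuotA
import Cfsg.Agent.H32.StabQuot3
set_option autoImplicit false
set_option linter.all false

/-!
Normalizer `p`-stability of quotients for all odd `p`: the final configuration.
-/

namespace Cfsg.Agent.ZJF.Quot

open Cfsg Subgroup
open Cfsg.Agent.H36 Cfsg.Agent.H32
open Cfsg.Agent.H32.StabQuot (central_of_chain exists_split frattini_map_normalizer frattini_sup_lt mem_pCore_of_pairs)
open Matrix (SpecialLinearGroup)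
open scoped commutatorElement

open Cfsg.Agent.H41 in
theorem ww_sq (F : Type*) [Field F] : ww F * ww F = -1 := by
  apply sl2_ext <;>
  simp only [mul_00, mul_01, mul_10, mul_11, uu, ww, mk4_00, mk4_01, mk4_10, mk4_11, inv_00, inv_01, inv_10,
    inv_11, neg_00, neg_01, neg_10, neg_11, one_00, one_01, one_10, one_11] <;> ring

open Cfsg.Agent.H41 in
theorem uw_cube (F : Type*) [Field F] : uu F * ww F * (uu F * ww F) * (uu F * ww F) = 1 := by
  apply sl2_ext <;>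
  simp only [mul_00, mul_01, mul_10, mul_11, uu, ww, mk4_00, mk4_01, mk4_10, mk4_11, inv_00, inv_01, inv_10,
    inv_11, neg_00, neg_01, neg_10, neg_11, one_00, one_01, one_10, one_11] <;> ring

/-- the final configuration is impossible. -/
theorem final_false' {X : Type*} [Group X] [Finite X] {p : ℕ} [hp : Fact p.Prime] (hp2 : p ≠ 2)
    (hst : IsNormalizerPStable p X) {P T K : Subgroup X} (hTP : T < P) (hPp : IsPGroup p P)
    (hPn : K ≤ normalizer (P : Set X)) (hTn : K ≤ normalizer (T : Set X))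
    (hTc : ∀ z ∈ T, ∀ u ∈ P, z * u = u * z) (hab : ∀ u ∈ P, ∀ v ∈ P, ⁅u, v⁆ ∈ T)
    (ψ : ↥K →* SpecialLinearGroup (Fin 2) (ZMod p)) (hψ : Function.Surjective ψ)
    (h1 : ∀ k : K, ψ k = 1 ↔ ∀ u ∈ P, ⁅(k : X), u⁆ ∈ T)
    (h2 : ∀ k : K, ψ k = -1 → ∀ u ∈ P, (k : X) * u * (k : X)⁻¹ * u ∈ T)
    (h3 : ∀ k : K, ψ k ^ p = 1 → ∀ u ∈ P, ⁅(k : X), ⁅(k : X), u⁆⁆ ∈ T)
    (h4 : ∀ k ∈ K, (orderOf k).Coprime p → k ∈ centralizer (T : Set X)) : False := by
  have hpodd : Odd p := hp.out.odd_of_ne_two hp2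
  let ρ : K →* MulAut P := (normalizerMonoidHom P).comp (inclusion hPn)
  have hρ : ∀ (k : K) (u : P), ((ρ k u : P) : X) = (k : X) * u * (k : X)⁻¹ := fun k u => rfl
  have hρ1 : ∀ k : K, (k : X) ∈ centralizer (P : Set X) → ρ k = 1 := by
    intro k hk
    apply MulEquiv.ext
    intro u
    apply Subtype.ext
    rw [hρ, ← mem_centralizer_iff.1 hk u u.2]
    show (u : X) * k * (k : X)⁻¹ = u
    group
  -- odd order
  obtain ⟨e, he⟩ := (IsPGroup.iff_card.1 hPp)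
  obtain ⟨i, hi⟩ : Odd (p ^ e) := hpodd.pow
  have hj : ∀ u : P, u ^ (2 * (i + 1)) = u := by
    intro u
    have h5 : u ^ Nat.card P = 1 := pow_card_eq_one'
    rw [he] at h5
    have h6 : 2 * (i + 1) = p ^ e + 1 := by omega
    rw [h6, pow_succ, h5, one_mul]
  -- the 2-element
  obtain ⟨t, htψ, n2, ht2⟩ : ∃ t : K, ψ t = -1 ∧ ∃ n : ℕ, t ^ 2 ^ n = 1 := by
    obtain ⟨t0, ht0⟩ := hψ (-1)
    obtain ⟨k, m, hm, hkm⟩ := Nat.exists_eq_two_pow_mul_odd (orderOf_pos t0).ne'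
    refine ⟨t0 ^ m, by rw [map_pow, ht0, hm.neg_one_pow], k, ?_⟩
    rw [← pow_mul, mul_comm m, ← hkm, pow_orderOf_eq_one]
  have h2cop : ∀ k : K, (∃ n : ℕ, k ^ 2 ^ n = 1) → (orderOf (k : X)).Coprime p := by
    rintro k ⟨n, hn⟩
    have h5 : orderOf (k : X) ∣ 2 ^ n := by
      apply orderOf_dvd_of_pow_eq_one
      exact congrArg Subtype.val hn
    refine Nat.Coprime.coprime_dvd_left h5 ?_
    apply Nat.Coprime.pow_left
    exact (Nat.coprime_primes Nat.prime_two hp.out).2 (Ne.symm hp2)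
  have hker : ∀ k : K, ψ k = 1 → (orderOf (k : X)).Coprime p → ρ k = 1 := by
    intro k hk hkp
    exact hρ1 k (central_of_chain hPp hTP.le hkp (h4 k k.2 hkp) ((h1 k).1 hk))
  have hττ : ρ t * ρ t = 1 := by
    rw [← map_mul]
    apply hker
    · rw [map_mul, htψ, neg_mul_neg, one_mul]
    · apply h2cop
      refine ⟨n2, ?_⟩
      rw [← pow_two, ← pow_mul, mul_comm, pow_mul, ht2, one_pow]
  have hcomm : ∀ m : K, ∃ m' : K, ψ m' = ψ m ∧ Commute (ρ t) (ρ m') := by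
    intro m
    obtain ⟨y, hy⟩ : ∃ y, y = m⁻¹ * t * m * t⁻¹ := ⟨_, rfl⟩
    have hyψ : ψ y = 1 := by
      rw [hy, map_mul, map_mul, map_mul, map_inv, map_inv, htψ]
      rw [show ((-1 : SpecialLinearGroup (Fin 2) (ZMod p)))⁻¹ = -1 from by
        rw [inv_eq_iff_mul_eq_one, neg_mul_neg, one_mul]]
      simp only [mul_neg, mul_one, neg_mul, neg_neg, inv_mul_cancel]
    obtain ⟨b, hb, k, hk⟩ := exists_split (p := p) (y : X)
    have h5 : ρ (y ^ b) = 1 := by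
      apply hker
      · rw [map_pow, hyψ, one_pow]
      · exact hb
    have h6 : ρ y ^ p ^ k = 1 := by
      have h7 : y ^ p ^ k = (y ^ b) ^ p ^ k := Subtype.ext hk
      rw [← map_pow, h7, map_pow, h5, one_pow]
    obtain ⟨j, hjk⟩ : Odd (p ^ k) := hpodd.pow
    refine ⟨m * y ^ (j + 1), by rw [map_mul, map_pow, hyψ, one_pow, mul_one], ?_⟩
    have h8 : ρ y = (ρ m)⁻¹ * ρ t * ρ m * (ρ t)⁻¹ := by rw [hy]; simp only [map_mul, map_inv]
    have h9 := comm_trick (τ := ρ t) (μ := ρ m) (j := j + 1) hττ (by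
      rw [← h8]
      have h10 : 2 * (j + 1) = p ^ k + 1 := by omega
      rw [h10, pow_succ, h6, one_mul])
    rw [← h8] at h9
    rw [map_mul, map_pow]
    exact h9
  obtain ⟨c0, hc0⟩ := hψ (uu (ZMod p))
  obtain ⟨w0, hw0⟩ := hψ (ww (ZMod p))
  obtain ⟨c, hc, hct⟩ := hcomm c0
  obtain ⟨w, hw, hwt⟩ := hcomm w0
  rw [hc0] at hc
  rw [hw0] at hw
  -- the subgroup `Y`
  have memT : ∀ u : P, u ∈ T.subgroupOf P ↔ (u : X) ∈ T := fun u => Iff.rfl
  have hKT : ∀ k : K, ∀ z ∈ T, (k : X) * z * (k : X)⁻¹ ∈ T := fun k z hz =>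
    (mem_normalizer_iff.1 (hTn k.2) z).1 hz
  have hTn' : ∀ z ∈ T, ∀ u ∈ P, u * z * u⁻¹ ∈ T := by
    intro z hz u hu
    rw [← hTc z hz u hu]
    have e : z * u * u⁻¹ = z := by group
    rwa [e]
  -- a fixed element
  have hcp : ψ c ^ p = 1 := by rw [hc]; exact StabQuot.uu_pow_prime p
  obtain ⟨a0, ha0T, ha0⟩ : ∃ a0 : P, (a0 : X) ∉ T ∧ ((ρ c a0 * a0⁻¹ : P) : X) ∈ T := by
    by_cases hall : ∀ u : P, ((ρ c u * u⁻¹ : P) : X) ∈ T
    · obtain ⟨u, hu, huT⟩ := SetLike.exists_of_lt hTP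
      exact ⟨⟨u, hu⟩, huT, hall _⟩
    · push Not at hall
      obtain ⟨u, hu⟩ := hall
      exact ⟨_, hu, h3 c hcp u u.2⟩
  obtain ⟨Y, a, haY, haT, hγY, hωY, hqY⟩ := exists_Y (T := T.subgroupOf P)
    (fun z hz u => Subtype.ext (hTc z hz u u.2)) (fun u v => hab u u.2 v v.2) hj (ρ t) (ρ c) (ρ w)
    (by
      intro z hz
      apply Subtype.ext
      have h5 := h4 t t.2 (h2cop t ⟨n2, ht2⟩)
      rw [hρ, ← mem_centralizer_iff.1 h5 z hz]
      group)
    (fun u => h2 t htψ u u.2) (fun z hz => hKT c z hz) (fun z hz => hKT w z hz)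
    (fun u => by
      have := congrArg (fun f : MulAut P => f u) hct.eq
      exact this) (fun u => by
      have := congrArg (fun f : MulAut P => f u) hwt.eq
      exact this)
    (fun u => by
      have h5 := h3 c hcp u u.2
      exact h5)
    (fun u => by
      have h5 : ψ (w * w) = -1 := by rw [map_mul, hw]; exact ww_sq _
      have h6 := h2 (w * w) h5 u u.2
      rw [memT, Subgroup.coe_mul, hρ, hρ]
      have e : ((w * w : K) : X) * u * ((w * w : K) : X)⁻¹ = (w : X) * ((w : X) * u * (w : X)⁻¹) * (w : X)⁻¹ := by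
        push_cast; group
      rwa [e] at h6)
    (fun u => by
      have h5 : ψ (c * w * (c * w) * (c * w)) = 1 := by
        simp only [map_mul, hc, hw]; exact uw_cube _
      have h6 := (h1 _).1 h5 u u.2
      rw [memT, Subgroup.coe_mul, hρ, hρ, hρ, hρ, hρ, hρ]
      have e : ⁅((c * w * (c * w) * (c * w) : K) : X), (u : X)⁆ = (c : X) * ((w : X) * ((c : X) *
          ((w : X) * ((c : X) * ((w : X) * u * (w : X)⁻¹) * (c : X)⁻¹) * (w : X)⁻¹) * (c : X)⁻¹) *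
          (w : X)⁻¹) * (c : X)⁻¹ * (u : X)⁻¹ := by
        rw [commutatorElement_def]; push_cast; group
      rw [e] at h6
      exact h6) (a0 := a0) ha0T ha0
  -- stability at `Y`
  obtain ⟨Y', hY'⟩ : ∃ Y', Y' = Y.map P.subtype := ⟨_, rfl⟩
  have hY'p : IsPGroup p Y' := by
    rw [hY']
    exact hPp.to_le (map_subtype_le _)
  have hnor : ∀ k : K, (∀ y ∈ Y, ρ k y ∈ Y) → (k : X) ∈ normalizer (Y' : Set X) := by
    intro k hk
    apply mem_normalizer_fintype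
    rintro x hx
    rw [hY'] at hx ⊢
    obtain ⟨y, hy, rfl⟩ := hx
    exact ⟨ρ k y, hk y hy, rfl⟩
  have hcN := hnor c hγY
  have hwN := hnor w hωY
  have hQuad : QuadOn.Quad Y' (c : X) := by
    rw [QuadOn.quad_iff, hY']
    rintro _ ⟨y, hy, rfl⟩
    have h5 := congrArg (fun x : P => (x : X)) (hqY y hy)
    have h6 : (c : X) * ((c : X) * y * (c : X)⁻¹ * (y : X)⁻¹) * (c : X)⁻¹ =
      (c : X) * y * (c : X)⁻¹ * (y : X)⁻¹ := h5
    show (c : X) * ⁅(c : X), (y : X)⁆ = ⁅(c : X), (y : X)⁆ * (c : X)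
    rw [commutatorElement_def]
    calc (c : X) * ((c : X) * y * (c : X)⁻¹ * (y : X)⁻¹)
        = ((c : X) * ((c : X) * y * (c : X)⁻¹ * (y : X)⁻¹) * (c : X)⁻¹) * c := by group
      _ = _ := by rw [h6]
  have hmem := hst Y' hY'p (c : X) hcN hQuad
  let CY : Subgroup (normalizer (Y' : Set X)) := (centralizer (Y' : Set X)).subgroupOf (normalizer (Y' : Set X))
  let f : normalizer (Y' : Set X) →* (normalizer (Y' : Set X)) ⧸ CY := QuotientGroup.mk' CY
  have hcO : f ⟨c, hcN⟩ ∈ pCore p ((normalizer (Y' : Set X)) ⧸ CY) := hmem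
  have hOn : (pCore p ((normalizer (Y' : Set X)) ⧸ CY)).Normal := inferInstance
  obtain ⟨x, hx⟩ : ∃ x : K, x = c * (w * c * w⁻¹) * c := ⟨_, rfl⟩
  have hxN : (x : X) ∈ normalizer (Y' : Set X) := by
    rw [hx]
    exact mul_mem (mul_mem hcN (mul_mem (mul_mem hwN hcN) (inv_mem hwN))) hcN
  have hxO : f ⟨x, hxN⟩ ∈ pCore p ((normalizer (Y' : Set X)) ⧸ CY) := by
    have e : (⟨x, hxN⟩ : normalizer (Y' : Set X)) = ⟨c, hcN⟩ * (⟨w, hwN⟩ * ⟨c, hcN⟩ * ⟨w, hwN⟩⁻¹) * ⟨c, hcN⟩ := by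
      apply Subtype.ext
      show (x : X) = _
      rw [hx]; rfl
    rw [e, map_mul, map_mul, map_mul, map_mul, map_inv]
    exact mul_mem (mul_mem hcO (hOn.conj_mem _ hcO _)) hcO
  obtain ⟨n, hn⟩ := (Cfsg.Agent.Solv.pCore_isPGroup (G := (normalizer (Y' : Set X)) ⧸ CY) p) ⟨_, hxO⟩
  have h5 : f (⟨x, hxN⟩ ^ p ^ n) = 1 := by
    rw [map_pow]; exact congrArg Subtype.val hn
  have h6 : ((x : X) ^ p ^ n) ∈ centralizer (Y' : Set X) := by
    have h6' : (⟨x, hxN⟩ : normalizer (Y' : Set X)) ^ p ^ n ∈ CY := (QuotientGroup.eq_one_iff _).1 h5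
    exact h6'
  have h7 : ψ ((x ^ 2) ^ p ^ n) = -1 := by
    have h8 : ψ (x ^ 2) = -1 := by
      rw [map_pow, hx]
      simp only [map_mul, map_inv, hc, hw]
      exact neg_one_eq (ZMod p)
    rw [map_pow, h8, (hpodd.pow).neg_one_pow]
  have h9 := h2 _ h7 a a.2
  have haY' : (a : X) ∈ Y' := by rw [hY']; exact ⟨a, haY, rfl⟩
  have h10 : (((x ^ 2) ^ p ^ n : K) : X) ∈ centralizer (Y' : Set X) := by
    have e : (((x ^ 2) ^ p ^ n : K) : X) = ((x : X) ^ p ^ n) ^ 2 := by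
      push_cast
      rw [← pow_mul, ← pow_mul, mul_comm]
    rw [e]; exact pow_mem h6 2
  have h11 : (((x ^ 2) ^ p ^ n : K) : X) * a * (((x ^ 2) ^ p ^ n : K) : X)⁻¹ = a := by
    rw [← mem_centralizer_iff.1 h10 _ haY']; group
  rw [h11] at h9
  apply haT
  rw [memT]
  have h13 : ((a : X) * a) ^ (i + 1) = (a : X) := by
    rw [← pow_two, ← pow_mul]
    exact congrArg (fun z : P => (z : X)) (hj a)
  rw [← h13]
  exact T.pow_mem h9 _

end Cfsg.Agent.ZJF.Quot
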